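import Mathlib
import Cfsg.Agent.Lib.Helper69.APQ.Defs
import Cfsg.Agent.S0713

/-!
# APQ = S4150, package [CASEA] (and two lemmas shared with [CASEB], [CASE3])
-/

set_option autoImplicit false

namespace Cfsg.Agent.Lib.Helper62.APQ

open Equiv Cfsg.Agent.Lib.Helper69.APQ

universe u

/-- A permutation of cycle type `{n}` is a cycle whose support has `n` points. -/
theorem isCycle_of_cycleType {β : Type u} [Fintype β] [DecidableEq β] {x : Perm β} {n : ℕ}
    (h : x.cycleType = {n}) : x.IsCycle ∧ x.support.card = n := by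
  constructor
  · rw [← Equiv.Perm.card_cycleType_eq_one, h]; simp
  · rw [← Equiv.Perm.sum_cycleType, h]; simp

/-- The hypothesis of [PRIM] when `x` is a cycle, the supports of `x` and `y` cover `β` and
are too big to be disjoint. -/
theorem prim_hyp_of_cycle {β : Type u} [Fintype β] [DecidableEq β] (x y : Perm β)
    (hx : x.IsCycle) (hfull : Full x y)
    (hcard : Fintype.card β < x.support.card + y.support.card) :
    ∀ b : β, y b ≠ b ∨ ∃ k : ℕ, y ((x ^ k) b) ≠ (x ^ k) b := by
  have hex : ∃ c, x c ≠ c ∧ y c ≠ c := by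
    by_contra hcon
    push Not at hcon
    have hdisj : Disjoint x.support y.support := by
      rw [Finset.disjoint_left]
      intro c hc hc'
      rw [Perm.mem_support] at hc hc'
      exact hc' (hcon c hc)
    have h1 := Finset.card_union_of_disjoint hdisj
    have hle : (x.support ∪ y.support).card ≤ Fintype.card β := Finset.card_le_univ _
    omega
  obtain ⟨c, hxc, hyc⟩ := hex
  intro b
  by_cases hb : y b = b
  · right
    have hxb : x b ≠ b := by
      rcases hfull b with h | h
      · exact h
      · exact absurd hb h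
    obtain ⟨k, hk⟩ := hx.exists_pow_eq hxb hxc
    exact ⟨k, by rw [hk]; exact hyc⟩
  · left; exact hb

/-- **[CASEA]** -/
theorem pkgCaseA_of (hP : PkgPrim.{u}) : PkgCaseA.{u} := by
  intro β _ _ x y p q hp hq hpq hx hy hfull hcard hp3
  obtain ⟨hxc, hxs⟩ := isCycle_of_cycleType hx
  obtain ⟨hyc, hys⟩ := isCycle_of_cycleType hy
  have hprim := hP x y q hq hy (by omega)
    (prim_hyp_of_cycle x y hxc hfull (by rw [hxs, hys]; omega))
  have hp2 := hp.two_le
  exact Cfsg.Agent.S0713.result (Subgroup.closure {x, y}) hprim hp (by omega) hp3 hxc hxs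
    (Subgroup.subset_closure (by simp))

end Cfsg.Agent.Lib.Helper62.APQ
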