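import Mathlib
import Cfsg.Agent.Lib.Helper69.APQ.Defs
import Cfsg.Agent.Lib.Helper62.APQ.CaseA

/-!
# APQ = S4150, package [CASE3]
-/

set_option autoImplicit false

namespace Cfsg.Agent.Lib.Helper62.APQ

open Equiv Cfsg.Agent.Lib.Helper69.APQ

universe u

/-- **[CASE3]** -/
theorem pkgCase3_of (hP : PkgPrim.{u}) : PkgCase3.{u} := by
  intro β _ _ x y hx hy hfull hcard
  obtain ⟨hxc, hxs⟩ := isCycle_of_cycleType hx
  obtain ⟨hyc, hys⟩ := isCycle_of_cycleType hy
  have hprim := hP x y 5 (by norm_num) hy (by omega)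
    (prim_hyp_of_cycle x y hxc hfull (by rw [hxs, hys]; omega))
  exact Equiv.Perm.alternatingGroup_le_of_isPreprimitive_of_isThreeCycle_mem hprim hx
    (Subgroup.subset_closure (by simp))

end Cfsg.Agent.Lib.Helper62.APQ
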