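import Mathlib
import Cfsg.Agent.Lib.Helper69.APQ.Defs
import Cfsg.Agent.Lib.Helper62.APQ.CaseA

/-!
# APQ = S4150, package [CASEB]
-/

set_option autoImplicit false

namespace Cfsg.Agent.Lib.Helper62.APQ

open Equiv Cfsg.Agent.Lib.Helper69.APQ

universe u

/-- **[CASEB]** -/
theorem pkgCaseB_of (hP : PkgPrim.{u}) : PkgCaseB.{u} := by
  intro β _ _ x y p q hp hq hpq hx hy hcard hq3
  obtain ⟨hyc, hys⟩ := isCycle_of_cycleType hy
  have hp2 := hp.two_le
  have hxs : x.support.card = 2 * p := by
    rw [← Equiv.Perm.sum_cycleType, hx]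
    simp
    ring
  have hxuniv : x.support = Finset.univ :=
    Finset.eq_univ_of_card _ (by rw [hxs, hcard])
  have hord : orderOf x = p := by
    rw [← Equiv.Perm.lcm_cycleType, hx]
    simp
  have hprimhyp : ∀ b : β, y b ≠ b ∨ ∃ k : ℕ, y ((x ^ k) b) ≠ (x ^ k) b := by
    intro b
    right
    by_contra hcon
    push Not at hcon
    have hxb : x b ≠ b := by
      have : b ∈ x.support := by rw [hxuniv]; exact Finset.mem_univ b
      exact Perm.mem_support.mp this
    have hcyc := Equiv.Perm.isCycle_cycleOf x hxb
    have hdvd := Equiv.Perm.orderOf_cycleOf_dvd_orderOf x b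
    rw [hcyc.orderOf, hord] at hdvd
    have hcard2 : (x.cycleOf b).support.card = p := by
      rcases (Nat.dvd_prime hp).mp hdvd with h | h
      · have := hcyc.two_le_card_support
        omega
      · exact h
    have hdisj : Disjoint (x.cycleOf b).support y.support := by
      rw [Finset.disjoint_left]
      intro c hc hc'
      rw [Equiv.Perm.mem_support_cycleOf_iff' hxb] at hc
      obtain ⟨k, hk⟩ := hc.exists_nat_pow_eq
      rw [Perm.mem_support, ← hk] at hc'
      exact hc' (hcon k)
    have h1 := Finset.card_union_of_disjoint hdisj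
    have hle : ((x.cycleOf b).support ∪ y.support).card ≤ Fintype.card β :=
      Finset.card_le_univ _
    omega
  have hprim := hP x y q hq hy (by omega) hprimhyp
  exact Cfsg.Agent.S0713.result (Subgroup.closure {x, y}) hprim hq (by omega) hq3 hyc hys
    (Subgroup.subset_closure (by simp))

end Cfsg.Agent.Lib.Helper62.APQ
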